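import Cfsg.Agent.Lib.M4.Spl
import Cfsg.Agent.Lib.Mon.Grp
import Cfsg.Agent.S5417
import Cfsg.Agent.S1695
import Cfsg.Agent.S2049

/-! # The Held group inside the Monster -/

set_option autoImplicit false

namespace Cfsg.Lib.M4

open Subgroup Function Griess

theorem seven_of_type {G : Type*} [Group G] [Finite G] {z : G} {Q : Subgroup (centralizer ({z} : Set G))} [Q.Normal]
    (h : IsOfMonsterType z Q) : ∃ x : G, orderOf x = 7 ∧ ∃ K ≤ centralizer {x}, Spor.IsoHe K := by
  obtain ⟨h', e, ψ, hψ⟩ := id h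
  obtain ⟨D, -, -⟩ := Mon.exists_xd h' hψ
  obtain ⟨g, m, n⟩ := Mon.exists_conj_of_setting h'
  obtain ⟨D, h1⟩ := Mon.exists_base D (Mon.card_map_of_setting h') m (isConj_iff.2 ⟨g, rfl⟩) n
  have c := Mon.card_pair D (Mon.card_map_of_setting h') m h1
  have : Fact (Nat.Prime 7) := ⟨by norm_num⟩
  obtain ⟨x, o⟩ := exists_prime_orderOf_dvd_card' (G := centralizer ({z, g * z * g⁻¹} : Set G)) 7 (by rw [c]; norm_num)
  rw [← orderOf_coe] at o
  have : ((zpowers (x : G)).subgroupOf (centralizer (zpowers (x : G) : Set G))).Normal :=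
    (normal_subgroupOf_iff_le_normalizer (le_centralizer _)).2 (centralizer_le_normalizer _)
  obtain ⟨e⟩ := Agent.S5417.result z Q h _ (Core.mem_map_subtype_iff.1 m) (isConj_iff.2 ⟨g, rfl⟩) n (zpowers (x : G))
    (zpowers_le.2 x.2) (by
      rw [c, Nat.card_zpowers, o, show Nat.factorization (2 ^ 35 * 244823040) 7 = 1 by simp; decide +kernel, pow_one])
  have := Agent.S1695.result.1
  obtain ⟨s, hs, h1, -⟩ := exists_sec Agent.S2049.result (perfect_of_card (by rw [Agent.S1695.result.2]; norm_num)) e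
  exact ⟨x, o, s.range, by rintro _ ⟨f, rfl⟩; exact Core.centralizer_zpowers (x : G) ▸ h1 f,
    ⟨(MonoidHom.ofInjective hs).symm⟩⟩

theorem exists_seven : ∃ x : M1, orderOf x = 7 ∧ ∃ K ≤ centralizer {x}, Spor.IsoHe K := seven_of_type monsterType_M1

end Cfsg.Lib.M4
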